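import Cfsg.Agent.H95.Rl.RedA
import Cfsg.Agent.H851.Rl.Tools
import Cfsg.Agent.H74.PslF
import Cfsg.Agent.S0242

/-!
# S3691, row `PSL_n(q)`: PSL-16b, `(q, n) ∈ {(2, 11), (2, 13), (2, 19), (3, 19)}` (helper70)
-/

set_option autoImplicit false

namespace Cfsg.Agent.H70.Rl

open Cfsg Cfsg.Geo Matrix Cfsg.Agent.H454.Reg Cfsg.Agent.H851.Rl
open Cfsg.Agent.H304.PslT (pre pr toGL_injective range_toGL mem_specialLinear_of_mem_pre)
open Cfsg.Agent.H304.Ppd (le_finrank_of_mem_stabilizer)
open Cfsg.Agent.H728.DghpNum (Ppd)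
open Cfsg.Agent.H95.Rl (exists_order irr_of mem_of_map out_cases ppd_of_big big_one)
open scoped MatrixGroups

universe u

section count

variable {n : ℕ} {F : Type} [Field F] [Fintype F]

/-- the number of invertible matrices fixing a subspace of dimension `d` -/
theorem card_stab_le {R : Subgroup (GL (Fin n) F)} {W : Submodule F (Fin n → F)} {d : ℕ} (hd : Module.finrank F W = d)
    (hR : ∀ x ∈ R, ∀ w ∈ W, (x : Matrix (Fin n) (Fin n) F) *ᵥ w ∈ W) :
    Nat.card R ≤ Fintype.card F ^ (d * d + (n - d) * n) := by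
  classical
  obtain ⟨W', hW'⟩ := Submodule.exists_isCompl W
  have hd' : Module.finrank F W' = n - d := by
    have := Submodule.finrank_add_eq_of_isCompl hW'
    rw [Module.finrank_fin_fun, hd] at this
    omega
  let g : R → (W →ₗ[F] W) × (W' →ₗ[F] (Fin n → F)) := fun x =>
    (((Matrix.mulVecLin ((x : GL (Fin n) F) : Matrix (Fin n) (Fin n) F)).restrict (p := W) (q := W)
        (fun w hw => hR x x.2 w hw)),
      (Matrix.mulVecLin ((x : GL (Fin n) F) : Matrix (Fin n) (Fin n) F)).domRestrict W')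
  have hg : Function.Injective g := by
    intro x y hxy
    apply Subtype.ext
    apply Units.ext
    have h1 := congrArg Prod.fst hxy
    have h2 := congrArg Prod.snd hxy
    have h3 : Matrix.mulVecLin ((x : GL (Fin n) F) : Matrix (Fin n) (Fin n) F) =
        Matrix.mulVecLin ((y : GL (Fin n) F) : Matrix (Fin n) (Fin n) F) := by
      apply LinearMap.ext
      intro v
      obtain ⟨w, w', rfl⟩ : ∃ (w : W) (w' : W'), (w : Fin n → F) + w' = v := by
        have h4 : v ∈ W ⊔ W' := by rw [hW'.sup_eq_top]; trivial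
        obtain ⟨a, ha, b, hb, h5⟩ := Submodule.mem_sup.1 h4
        exact ⟨⟨a, ha⟩, ⟨b, hb⟩, h5⟩
      have h4 := congrArg Subtype.val (LinearMap.congr_fun h1 w)
      have h5 := LinearMap.congr_fun h2 w'
      rw [map_add, map_add]
      exact congrArg₂ (· + ·) h4 h5
    apply Matrix.ext_of_mulVec_single
    intro i
    exact LinearMap.congr_fun h3 (Pi.single i 1)
  have hf1 : Finite (W →ₗ[F] W) := Module.finite_of_finite F
  have hf2 : Finite (W' →ₗ[F] (Fin n → F)) := Module.finite_of_finite F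
  refine (Nat.card_le_card_of_injective g hg).trans (le_of_eq ?_)
  rw [Nat.card_prod, Module.natCard_eq_pow_finrank (K := F), Module.natCard_eq_pow_finrank (K := F) (V := W' →ₗ[F] _),
    Module.finrank_linearMap, Module.finrank_linearMap, Module.finrank_fin_fun, hd, hd', ← pow_add,
    Nat.card_eq_fintype_card]

theorem card_sl' (hn : 1 ≤ n) {q : ℕ} (hF : Fintype.card F = q) :
    (q - 1) * Nat.card (Matrix.SpecialLinearGroup (Fin n) F) = ∏ i : Fin n, (q ^ n - q ^ (i : ℕ)) := by
  have := S0242.result (F := F) hF n hn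
  exact this

omit [Fintype F] in
theorem card_specialLinear : Nat.card (specialLinear (Fin n) F) = Nat.card (Matrix.SpecialLinearGroup (Fin n) F) := by
  rw [← range_toGL]
  exact (Nat.card_congr (MonoidHom.ofInjective toGL_injective).toEquiv).symm

/-- the order of a group of matrices not containing `SL` -/
theorem card_not_sl {q : ℕ} (hF : Fintype.card F = q) (hn : 3 ≤ n) (hexc : ¬ (n = 4 ∧ q = 2)) {S : Subgroup (GL (Fin n) F)}
    (hS : ¬ specialLinear (Fin n) F ≤ S) :
    Nat.card S * ((q ^ n - 1) / (q - 1)) ≤ ∏ i : Fin n, (q ^ n - q ^ (i : ℕ)) := by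
  classical
  let H : Subgroup (Matrix.SpecialLinearGroup (Fin n) F) := S.comap Matrix.SpecialLinearGroup.toGL
  have hH : H ≠ ⊤ := by
    intro h
    apply hS
    rw [← range_toGL]
    rintro _ ⟨s, rfl⟩
    have : s ∈ H := by rw [h]; trivial
    exact this
  have h1 := H74.Psl.min_index hF hn hexc H hH
  have h2 := H.card_mul_index
  let d : S →* Fˣ := (Matrix.GeneralLinearGroup.det : GL (Fin n) F →* Fˣ).comp S.subtype
  have h3 := d.ker.card_mul_index
  rw [Subgroup.index_ker] at h3
  have h4 : Nat.card d.range ≤ q - 1 := by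
    refine (Nat.card_le_card_of_injective _ d.range.subtype_injective).trans ?_
    rw [Nat.card_units, Nat.card_eq_fintype_card, hF]
  have h5 : Nat.card d.ker ≤ Nat.card H := by
    refine Nat.card_le_card_of_injective (fun x : d.ker =>
      (⟨⟨((x : S) : GL (Fin n) F), congrArg Units.val (show Matrix.GeneralLinearGroup.det ((x : S) : GL (Fin n) F) = 1 from x.2)⟩, ?_⟩ : H)) ?_
    · change Matrix.SpecialLinearGroup.toGL _ ∈ S
      have : Matrix.SpecialLinearGroup.toGL (⟨((x : S) : GL (Fin n) F), congrArg Units.val (show Matrix.GeneralLinearGroup.det ((x : S) : GL (Fin n) F) = 1 from x.2)⟩ :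
          Matrix.SpecialLinearGroup (Fin n) F) = ((x : S) : GL (Fin n) F) := Units.ext rfl
      rw [this]
      exact (x : S).2
    · intro x y hxy
      apply Subtype.ext
      apply Subtype.ext
      apply Units.ext
      exact congrArg (fun z : H => ((z : Matrix.SpecialLinearGroup (Fin n) F) : Matrix (Fin n) (Fin n) F)) hxy
  rw [← card_sl' (by omega) hF, ← h3, ← h2]
  calc Nat.card d.ker * Nat.card d.range * ((q ^ n - 1) / (q - 1))
      ≤ Nat.card H * (q - 1) * H.index := Nat.mul_le_mul (Nat.mul_le_mul h5 h4) h1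
    _ = _ := by ring

end count

section core

variable {G : Type u} [Group G] [Finite G] {T : Subgroup G}

/-- the numbers -/
structure Nums (p m r r' : ℕ) : Prop where
  hp : p.Prime
  hN : (m + 1).Prime
  h10 : 10 ≤ m
  h1 : Big p 1 (m + 1) r 1
  hr2 : ¬ r ∣ 2
  h2 : Big p 1 (m - 1) r' 1
  hr'2 : ¬ r' ∣ 2
  hr'N : r' ≠ m + 1
  num1 : 2 * (m + 1) * p ^ (m + 1) * p ^ (4 + (m - 1) * (m + 1)) < ∏ i : Fin (m + 1), (p ^ (m + 1) - p ^ (i : ℕ))
  num2 : 2 * (m + 1) * p ^ (m + 1) * (p ^ m * ∏ i : Fin m, (p ^ m - p ^ (i : ℕ))) <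
    (∏ i : Fin (m + 1), (p ^ (m + 1) - p ^ (i : ℕ))) * ((p ^ m - 1) / (p - 1))

theorem dvd_fac {q k r : ℕ} (hq : 2 ≤ q) (hk : 1 ≤ k) (h : Ppd q k r) : r ∣ r ^ (q ^ k - 1).factorization r := by
  apply dvd_pow_self
  have h4 : r ∣ q ^ k - 1 := by
    have h5 : 1 ≤ q ^ k := Nat.one_le_pow _ _ (by omega)
    rw [← ZMod.natCast_eq_zero_iff, Nat.cast_sub h5, Nat.cast_one, sub_eq_zero, Nat.cast_pow,
      ← orderOf_dvd_iff_pow_eq_one, h.ord]
  have h6 : 1 < q ^ k := Nat.one_lt_pow (by omega) (by omega)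
  exact (h.prime.factorization_pos_of_dvd (by omega) h4).ne'

theorem core {F : Type} [Field F] [Fintype F] {m p r r' : ℕ} (N : Nums p m r r') (hF : Fintype.card F = p)
    (hL : ∀ {n : ℕ} {R : Subgroup (GL (Fin n) F)} {k r : ℕ}, Big p 1 k r 1 → 10 ≤ n → n < 2 * k → r ∣ Nat.card R →
      ActsIrreducibly (matrixSet R) → specialLinear (Fin n) F ≤ R ∨ Cfsg.Agent.H851.Rl.Out k R)
    {X Y : Subgroup G} (h : Fac T X Y) (e : T ≃* Matrix.ProjectiveSpecialLinearGroup (Fin (m + 1)) F)
    (hX : r ∣ Nat.card (pg e X)) :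
    ∃ (e' : T ≃* Matrix.ProjectiveSpecialLinearGroup (Fin (m + 1)) F) (v : Fin (m + 1) → F), Pt (pg e' Y) v := by
  have hp := N.hp
  have hN := N.hN
  have h10 := N.h10
  have hq : 2 ≤ p := hp.two_le
  have hNodd : Odd (m + 1) := hN.odd_of_ne_two (by omega)
  have hkodd : Odd (m - 1) := by
    obtain ⟨a, ha⟩ := hNodd
    exact ⟨a - 1, by omega⟩
  have hF1 : Fintype.card F = p ^ 1 := by rw [pow_one, hF]
  have hP1 := ppd_of_big hF N.h1
  have hP2 := ppd_of_big hF N.h2
  have hne : Nonempty (Fin (m + 1)) := ⟨0⟩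
  -- `X` normalises a field of matrices of degree `m + 1`
  have hP1' : Ppd (Fintype.card F) (Fintype.card (Fin (m + 1))) r := by rw [Fintype.card_fin]; exact hP1
  have hXE : Ext (m + 1) (pg e X) := by
    rcases hL N.h1 (by omega) (by omega) hX (irr_of hP1' hX) with h3 | h3
    · exact absurd h3 (not_sl_le e h.not_le_left)
    · obtain ⟨s, hs, hs1, -, hE⟩ := out_cases hp hF hNodd h3
      rw [Fintype.card_fin, Nat.prime_dvd_prime_iff_eq hs hN] at hs1
      rwa [hs1] at hE
  have hXcard : Nat.card (pg e X) * (p - 1) ≤ (m + 1) * p ^ (m + 1) := by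
    obtain ⟨K, hK, hle⟩ := hXE
    have h3 := H951.Rl.card_ext_sl_le (F := F) hK
    rw [hF, Fintype.card_fin, pow_two, Nat.mul_div_cancel _ (by omega)] at h3
    refine le_trans (Nat.mul_le_mul_right _ ?_) h3
    exact Nat.card_le_card_of_injective _ (Subgroup.inclusion_injective
      (show pg e X ≤ subalgebraNormalizer K ⊓ specialLinear (Fin (m + 1)) F from
        le_inf hle (Cfsg.Agent.H851.Rl.pg_le e X)))
  -- the other prime divides the order of `Y`
  have hX2 : ¬ r' ∣ Nat.card (pg e X) := by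
    intro hd
    have ho : orderOf ((p : ℕ) : ZMod r') = 1 * (m - 1) := by rw [one_mul, ← hF]; exact hP2.ord
    rcases ext_dvd (p := p) (f := 1) (k' := m - 1) hN hF1 hP2.prime ho le_rfl (by omega)
      (by rw [Fintype.card_fin]; omega) hne hXE hd with h4 | h4
    · exact N.hr'N h4
    · have := Nat.le_of_dvd (by omega) h4
      omega
  have hv2 := dvd_fac (by rw [hF]; exact hq) (show 1 ≤ m - 1 by omega) hP2
  have hY : r' ∣ Nat.card (pg e Y) := by
    rcases H815.Rl.side h (by omega) e hp hF1 hP2.prime hP2.ord (by omega) (by omega) (by rw [mul_one]; exact N.hr'2)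
      with ⟨h4, -⟩ | ⟨h4, -⟩
    · exact absurd (hv2.trans h4) hX2
    · exact hv2.trans h4
  have hYirr : ¬ ActsIrreducibly (matrixSet (pg e Y)) := by
    intro hirr
    rcases hL N.h2 (by omega) (by omega) hY hirr with h3 | h3
    · exact not_sl_le e h.not_le_right h3
    · obtain ⟨s, hs, hs1, hs2, -⟩ := out_cases hp hF hkodd h3
      rw [Fintype.card_fin, Nat.prime_dvd_prime_iff_eq hs hN] at hs1
      rw [hs1] at hs2
      have := Nat.le_of_dvd (by omega) hs2
      omega
  unfold ActsIrreducibly at hYirr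
  push Not at hYirr
  obtain ⟨W, hW, h0, h1⟩ := hYirr
  have hWR : ∀ x ∈ pg e Y, ∀ w ∈ W, (x : Matrix (Fin (m + 1)) (Fin (m + 1)) F) *ᵥ w ∈ W :=
    fun x hx w hw => mem_of_map hW hx hw
  have hW0 : Module.finrank F W ≠ 0 := fun h => h0 (Submodule.finrank_eq_zero.1 h)
  have hW1 : Module.finrank F W < m + 1 := by
    have := Submodule.finrank_lt h1
    rwa [Module.finrank_fin_fun] at this
  have hfac := H815.Rl.card_le_pg h (by omega) e hp hF1
  rw [card_specialLinear, mul_one] at hfac
  have hsl := card_sl' (F := F) (n := m + 1) (by omega) hF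
  have hW2 : Module.finrank F W = 1 ∨ Module.finrank F W + 1 = m + 1 := by
    by_contra hcon
    push Not at hcon
    obtain ⟨x, hxR, hx⟩ := exists_order hP2.prime hY
    have h2 := le_finrank_of_mem_stabilizer hP2 hx (fun w hw => hWR x hxR w hw)
    rw [Fintype.card_fin] at h2
    have h3 : Module.finrank F W = 2 ∨ Module.finrank F W = m - 1 := by omega
    have h4 := card_stab_le rfl hWR
    have h5 : Nat.card (pg e Y) ≤ p ^ (4 + (m - 1) * (m + 1)) := by
      rw [hF] at h4
      rcases h3 with h3 | h3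
      · rw [h3] at h4
        refine h4.trans (le_of_eq ?_)
        congr 1
      · rw [h3] at h4
        refine h4.trans (le_of_eq ?_)
        congr 1
        obtain ⟨a, rfl⟩ : ∃ a, m = a + 2 := ⟨m - 2, by omega⟩
        rw [show a + 2 - 1 = a + 1 by omega, show a + 2 + 1 - (a + 1) = 2 by omega]
        ring
    have h6 := N.num1
    rw [← hsl] at h6
    have h7 : (p - 1) * Nat.card (Matrix.SpecialLinearGroup (Fin (m + 1)) F) ≤
        2 * (m + 1) * p ^ (m + 1) * p ^ (4 + (m - 1) * (m + 1)) :=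
      calc (p - 1) * Nat.card (Matrix.SpecialLinearGroup (Fin (m + 1)) F)
          ≤ (p - 1) * (2 * Nat.card (pg e X) * Nat.card (pg e Y)) := Nat.mul_le_mul_left _ hfac
        _ = 2 * (Nat.card (pg e X) * (p - 1)) * Nat.card (pg e Y) := by ring
        _ ≤ 2 * ((m + 1) * p ^ (m + 1)) * p ^ (4 + (m - 1) * (m + 1)) :=
            Nat.mul_le_mul (Nat.mul_le_mul_left _ hXcard) h5
        _ = _ := by ring
    omega
  have hWs : pg e Y ≤ subspaceStabilizer W := by
    intro x hx w
    constructor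
    · exact fun hw => hWR x hx w hw
    · intro hw
      have h5 := hWR _ (Subgroup.inv_mem _ hx) _ hw
      have h6 : ((x⁻¹ : GL (Fin (m + 1)) F) : Matrix (Fin (m + 1)) (Fin (m + 1)) F) *ᵥ
          ((x : Matrix (Fin (m + 1)) (Fin (m + 1)) F) *ᵥ w) = w := by
        rw [mulVec_mulVec, ← Units.val_mul, inv_mul_cancel, Units.val_one, one_mulVec]
      rw [← h6]
      exact h5
  obtain ⟨e', v, hv, hfix, hcard⟩ := point_of (by omega) e Y hW2 hWs
  refine ⟨e', v, ?_⟩
  by_contra hno
  obtain ⟨S, hS1, hS2, -⟩ := block_card hv (Cfsg.Agent.H851.Rl.pg_le e' Y) hfix hno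
  rw [hcard, hF] at hS2
  have hS3 := card_not_sl hF (by omega) (by omega) hS1
  have h6 := N.num2
  rw [← hsl] at h6
  have h7 : (p - 1) * Nat.card (Matrix.SpecialLinearGroup (Fin (m + 1)) F) * ((p ^ m - 1) / (p - 1)) ≤
      2 * (m + 1) * p ^ (m + 1) * (p ^ m * ∏ i : Fin m, (p ^ m - p ^ (i : ℕ))) :=
    calc (p - 1) * Nat.card (Matrix.SpecialLinearGroup (Fin (m + 1)) F) * ((p ^ m - 1) / (p - 1))
        ≤ (p - 1) * (2 * Nat.card (pg e X) * Nat.card (pg e Y)) * ((p ^ m - 1) / (p - 1)) :=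
          Nat.mul_le_mul_right _ (Nat.mul_le_mul_left _ hfac)
      _ = 2 * (Nat.card (pg e X) * (p - 1)) * (Nat.card (pg e Y) * ((p ^ m - 1) / (p - 1))) := by ring
      _ ≤ 2 * ((m + 1) * p ^ (m + 1)) * (p ^ m * Nat.card S * ((p ^ m - 1) / (p - 1))) :=
          Nat.mul_le_mul (Nat.mul_le_mul_left _ hXcard) (Nat.mul_le_mul_right _ hS2)
      _ = 2 * ((m + 1) * p ^ (m + 1)) * (p ^ m * (Nat.card S * ((p ^ m - 1) / (p - 1)))) := by ring
      _ ≤ 2 * ((m + 1) * p ^ (m + 1)) * (p ^ m * ∏ i : Fin m, (p ^ m - p ^ (i : ℕ))) :=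
          Nat.mul_le_mul_left _ (Nat.mul_le_mul_left _ hS3)
      _ = _ := by ring
  omega

theorem core' {F : Type} [Field F] [Fintype F] {m p r r' : ℕ} (N : Nums p m r r') (hF : Fintype.card F = p)
    (hL : ∀ {n : ℕ} {R : Subgroup (GL (Fin n) F)} {k r : ℕ}, Big p 1 k r 1 → 10 ≤ n → n < 2 * k → r ∣ Nat.card R →
      ActsIrreducibly (matrixSet R) → specialLinear (Fin n) F ≤ R ∨ Cfsg.Agent.H851.Rl.Out k R)
    {X Y : Subgroup G} (h : Fac T X Y) (e : T ≃* Matrix.ProjectiveSpecialLinearGroup (Fin (m + 1)) F) :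
    ∃ (e' : T ≃* Matrix.ProjectiveSpecialLinearGroup (Fin (m + 1)) F) (v : Fin (m + 1) → F),
      Pt (pg e' X) v ∨ Pt (pg e' Y) v := by
  have hP1 := ppd_of_big hF N.h1
  have h10 := N.h10
  have hv1 := dvd_fac (Fintype.one_lt_card (α := F)) (show 1 ≤ m + 1 by omega) hP1
  rcases H815.Rl.side h (by omega) e N.hp (show Fintype.card F = p ^ 1 by rw [pow_one, hF]) hP1.prime hP1.ord
    (by omega) (by omega) (by rw [mul_one]; exact N.hr2) with ⟨h4, -⟩ | ⟨h4, -⟩
  · obtain ⟨e', v, h5⟩ := core N hF hL h e (hv1.trans h4)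
    exact ⟨e', v, Or.inr h5⟩
  · obtain ⟨e', v, h5⟩ := core N hF hL h.symm e (hv1.trans h4)
    exact ⟨e', v, Or.inl h5⟩

theorem nums_11 : Nums 2 10 89 73 where
  hp := Nat.prime_two
  hN := by norm_num
  h10 := by norm_num
  h1 := big_one Nat.prime_two (by norm_num) (by norm_num) (by norm_num)
    (by intro i h1 h2; interval_cases i <;> norm_num) (by norm_num)
  hr2 := by norm_num
  h2 := big_one Nat.prime_two (by norm_num) (by norm_num) (by norm_num)
    (by intro i h1 h2; interval_cases i <;> norm_num) (by norm_num)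
  hr'2 := by norm_num
  hr'N := by norm_num
  num1 := by decide +kernel
  num2 := by decide +kernel

theorem nums_13 : Nums 2 12 8191 89 where
  hp := Nat.prime_two
  hN := by norm_num
  h10 := by norm_num
  h1 := big_one Nat.prime_two (by norm_num) (by norm_num) (by norm_num)
    (by intro i h1 h2; interval_cases i <;> norm_num) (by norm_num)
  hr2 := by norm_num
  h2 := big_one Nat.prime_two (by norm_num) (by norm_num) (by norm_num)
    (by intro i h1 h2; interval_cases i <;> norm_num) (by norm_num)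
  hr'2 := by norm_num
  hr'N := by norm_num
  num1 := by decide +kernel
  num2 := by decide +kernel

theorem nums_19 : Nums 2 18 524287 131071 where
  hp := Nat.prime_two
  hN := by norm_num
  h10 := by norm_num
  h1 := big_one Nat.prime_two (by norm_num) (by norm_num) (by norm_num)
    (by intro i h1 h2; interval_cases i <;> norm_num) (by norm_num)
  hr2 := by norm_num
  h2 := big_one Nat.prime_two (by norm_num) (by norm_num) (by norm_num)
    (by intro i h1 h2; interval_cases i <;> norm_num) (by norm_num)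
  hr'2 := by norm_num
  hr'N := by norm_num
  num1 := by decide +kernel
  num2 := by decide +kernel

theorem nums_3_19 : Nums 3 18 1597 1871 where
  hp := Nat.prime_three
  hN := by norm_num
  h10 := by norm_num
  h1 := big_one Nat.prime_three (by norm_num) (by norm_num) (by norm_num)
    (by intro i h1 h2; interval_cases i <;> norm_num) (by norm_num)
  hr2 := by norm_num
  h2 := big_one Nat.prime_three (by norm_num) (by norm_num) (by norm_num)
    (by intro i h1 h2; interval_cases i <;> norm_num) (by norm_num)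
  hr'2 := by norm_num
  hr'N := by norm_num
  num1 := by decide +kernel
  num2 := by decide +kernel

/-- the reduction, given the list lemma -/
theorem red_B_of {F : Type} [Field F] [Fintype F]
    (hL : ∀ {p n : ℕ} {R : Subgroup (GL (Fin n) F)} {k r : ℕ}, Fintype.card F = p → Big p 1 k r 1 → 10 ≤ n →
      n < 2 * k → r ∣ Nat.card R → ActsIrreducibly (matrixSet R) →
        specialLinear (Fin n) F ≤ R ∨ Cfsg.Agent.H851.Rl.Out k R)
    {n : ℕ} {X Y : Subgroup G} (h : Fac T X Y) (e : T ≃* Matrix.ProjectiveSpecialLinearGroup (Fin n) F)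
    (hq : (Fintype.card F, n) ∈ ({(2, 11), (2, 13), (2, 19), (3, 19)} : Finset (ℕ × ℕ))) :
    ∃ (e' : T ≃* Matrix.ProjectiveSpecialLinearGroup (Fin n) F) (v : Fin n → F), Pt (pg e' X) v ∨ Pt (pg e' Y) v := by
  simp only [Finset.mem_insert, Finset.mem_singleton, Prod.mk.injEq] at hq
  rcases hq with ⟨h1, rfl⟩ | ⟨h1, rfl⟩ | ⟨h1, rfl⟩ | ⟨h1, rfl⟩
  · exact core' nums_11 h1 (fun hB => hL h1 hB) h e
  · exact core' nums_13 h1 (fun hB => hL h1 hB) h e
  · exact core' nums_19 h1 (fun hB => hL h1 hB) h e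
  · exact core' nums_3_19 h1 (fun hB => hL h1 hB) h e

/-- **PSL-16b** -/
theorem red_B {F : Type} [Field F] [Fintype F] {n : ℕ} (hP : H659.CovCore.S5948Stmt.{0}) {X Y : Subgroup G}
    (h : Fac T X Y) (e : T ≃* Matrix.ProjectiveSpecialLinearGroup (Fin n) F)
    (hq : (Fintype.card F, n) ∈ ({(2, 11), (2, 13), (2, 19), (3, 19)} : Finset (ℕ × ℕ))) :
    ∃ (e' : T ≃* Matrix.ProjectiveSpecialLinearGroup (Fin n) F) (v : Fin n → F), Pt (pg e' X) v ∨ Pt (pg e' Y) v := by
  refine red_B_of ?_ h e hq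
  intro p n R k r hF hB h10 hn hR hirr
  by_cases h1 : specialLinear (Fin n) F ≤ R
  · exact Or.inl h1
  · right
    exact list10 (gpps_of hP) (by rw [pow_one, hF]) hB (by rwa [Fintype.card_fin]) (by rwa [Fintype.card_fin])
      (by rwa [pow_one]) hirr h1

end core

end Cfsg.Agent.H70.Rl
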